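import Cfsg.Agent.Lib.SUSpec.Structure
import Cfsg.Agent.Lib.Zsig.Basic

set_option autoImplicit false
set_option linter.unusedSectionVars false

/-!
Elements of `PSU_{2 h}(F)` coming from the cyclic torus of order `q ^ (2 h) - 1` of `GU_{2 h}`.
-/

namespace Cfsg.Agent.Lib.SUSpec.HalfTorus

open Polynomial Module FiniteField
open Cfsg.Agent.Lib.SpSpec.Recip
open Cfsg.Agent.Lib.HermCount.Field Cfsg.Agent.Lib.HermCount.Space
open Cfsg.Agent.Lib.SUSpec.Dag Cfsg.Agent.Lib.SUSpec.HermAlg Cfsg.Agent.Lib.SUSpec.Structure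

variable {F : Type*} [Field F] [Fintype F] {q : ℕ}

section construction

variable (p : ℕ) [Fact p.Prime] [CharP F p]

/-- the elements of the split torus -/
theorem exists_order_split (hF : Fintype.card F = q ^ 2) {a : ℕ} (hq : q = p ^ a) {n m : ℕ}
    (hm : n = 2 * m) (hm0 : m ≠ 0) [NeZero m] {y : Extension F p m} (hy0 : y ≠ 0)
    (hyM : y ^ M' q n = 1) (N : ℕ)
    (hN : ∃ c : F, y ^ N = algebraMap F _ c ∧ c ^ (q + 1) = 1)
    (hmin : ∀ (j : ℕ) (c : F), y ^ j = algebraMap F _ c → c ^ (q + 1) = 1 → N ∣ j) :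
    ∃ g : Cfsg.PSU n F q, orderOf g = N := by
  have hq2 := two_le hF
  have hn : Even n := by
    rw [hm]
    exact even_two_mul m
  have hn2 : 2 ≤ n := by omega
  obtain ⟨σ, τ, hform, hσ⟩ := exists_herm_split (F := F) p hF hq hm hm0
  have hmul := M'_mul_even (q := q) hn (by omega)
  have hodd : Odd (n - 1) := by
    rw [hm]
    exact ⟨m - 1, by omega⟩
  have hcard : (q ^ 2) ^ m = q ^ n := by rw [hm, pow_mul]
  let K := Extension F p m
  have hself : y ^ (q ^ n) = y := by
    have h1 : Nat.card K = q ^ n := by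
      rw [FiniteField.natCard_extension, Nat.card_eq_fintype_card, hF, hcard]
    letI : Fintype K := Fintype.ofFinite K
    rw [← h1, Nat.card_eq_fintype_card]
    exact FiniteField.pow_card y
  set z : K := (y ^ (q ^ (n - 1)))⁻¹ with hz
  have hexp : q ^ (n - 1) * q = q ^ n := by
    rw [← pow_succ]
    congr 1
    omega
  have hzq : z ^ q = y⁻¹ := by
    rw [hz, inv_pow, ← pow_mul, hexp, hself]
  have hyy : ∀ j, ((y, z) : K × K) ^ j = (y ^ j, ((y ^ j) ^ (q ^ (n - 1)))⁻¹) := by
    intro j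
    rw [Prod.pow_mk, hz, inv_pow, ← pow_mul, ← pow_mul, mul_comm]
  have hdim : finrank F (K × K) = n := by
    rw [Module.finrank_prod, FiniteField.finrank_extension]
    omega
  have hfin : Finite K := inferInstance
  apply exists_psu_order hF hn2 hform hdim ((y, z) : K × K)
  · rw [hσ]
    apply Prod.ext
    · change y * z ^ q = 1
      rw [hzq]
      exact mul_inv_cancel₀ hy0
    · change z * y ^ (q ^ (n - 1)) = 1
      exact inv_mul_cancel₀ (pow_ne_zero _ hy0)
  · rw [Lib.SLn.PrimeGraph.norm_prod]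
    set c := Algebra.norm F y with hc
    have hc0 : c ≠ 0 := Algebra.norm_ne_zero_iff.mpr hy0
    have hnp : c ^ (q ^ (n - 1)) = c ^ q := pow_odd_eq hF hodd c
    have hz1 : Algebra.norm F z * c ^ q = 1 := by
      rw [← hnp, hc, ← map_pow, ← map_mul, hz, inv_mul_cancel₀ (pow_ne_zero _ hy0), map_one]
    -- the norm is fixed by the Frobenius
    have hcq : c ^ q = c := by
      have h1 := Lib.SLn.Spec.sub_one_mul_geom (q ^ 2) m (Nat.one_le_pow _ _ (by omega))
      rw [hcard, ← hmul] at h1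
      have h3 : q ^ 2 - 1 = (q + 1) * (q - 1) := by
        obtain ⟨t, rfl⟩ : ∃ t, q = t + 1 := ⟨q - 1, by omega⟩
        simp only [Nat.add_sub_cancel]
        have : (t + 1) ^ 2 = (t + 1 + 1) * t + 1 := by ring
        omega
      have h4 : (q - 1) * (∑ i ∈ Finset.range m, (q ^ 2) ^ i) = M' q n := by
        rw [h3, mul_comm (M' q n), mul_assoc] at h1
        exact Nat.eq_of_mul_eq_mul_left (by omega) h1
      have h5 : algebraMap F K c = y ^ (∑ i ∈ Finset.range m, (q ^ 2) ^ i) := by
        rw [hc, algebraMap_norm_eq_pow_sum, FiniteField.finrank_extension, Nat.card_eq_fintype_card, hF]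
      have h6 : c ^ (q - 1) = 1 := by
        apply (algebraMap F K).injective
        rw [map_pow, h5, ← pow_mul, mul_comm, h4, hyM, map_one]
      have h7 : q = (q - 1) + 1 := by omega
      nth_rewrite 1 [h7]
      rw [pow_succ, h6, one_mul]
    rw [hcq] at hz1
    rw [mul_comm]
    exact hz1
  · obtain ⟨c, hc, hcq⟩ := hN
    refine ⟨c, ?_⟩
    rw [hyy, hc, ← map_pow, pow_odd_eq hF hodd, ← map_inv₀]
    apply Prod.ext
    · rfl
    · change algebraMap F K (c ^ q)⁻¹ = algebraMap F K c
      congr 1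
      apply inv_eq_of_mul_eq_one_right
      rw [← pow_succ]
      exact hcq
  · intro j c hc
    rw [hyy] at hc
    have h1 : y ^ j = algebraMap F K c := congrArg Prod.fst hc
    have h2 : ((y ^ j) ^ (q ^ (n - 1)))⁻¹ = algebraMap F K c := congrArg Prod.snd hc
    apply hmin j c h1
    rw [h1, ← map_pow, pow_odd_eq hF hodd, ← map_inv₀] at h2
    have h3 := (algebraMap F K).injective h2
    have hc0 : c ≠ 0 := by
      rintro rfl
      rw [map_zero] at h1
      exact pow_ne_zero j hy0 h1
    rw [pow_succ']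
    nth_rewrite 1 [← h3]
    exact inv_mul_cancel₀ (pow_ne_zero _ hc0)

end construction

section structure_part

variable (p : ℕ) [Fact p.Prime] [CharP F p]

/-- an irreducible factor of the characteristic polynomial divides each polynomial vanishing at
the matrix -/
lemma dvd_of_aeval_eq_zero {n : ℕ} (A : Matrix (Fin n) (Fin n) F) {π g : F[X]} (hπ : Irreducible π)
    (hd : π ∣ A.charpoly) (hg : aeval A g = 0) : π ∣ g := by
  classical
  by_contra hne
  have hcop : IsCoprime π g := (hπ.coprime_iff_not_dvd).mpr hne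
  obtain ⟨a, b, hab⟩ := hcop
  have h1 := congrArg (aeval A) hab
  rw [map_add, map_mul, map_mul, hg, mul_zero, add_zero, map_one] at h1
  have h2 := Lib.SpSpec.Structure.det_aeval_eq_zero_of_dvd' A hπ hd
  have h3 := congrArg Matrix.det h1
  rw [Matrix.det_mul, h2, mul_zero, Matrix.det_one] at h3
  exact zero_ne_one h3

/-- The main divisibility: an element of order `N` in the projective group, where `N` is divisible by a
suitable primitive prime divisor. -/
theorem dvd_of_exists_order (hF : Fintype.card F = q ^ 2) {a : ℕ} (hq : q = p ^ a) (hodd : Odd q)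
    {n h : ℕ} (hn : n = 2 * h) (hh : 2 ≤ h) {N t S : ℕ} (g : Cfsg.PSU n F q) (hg : orderOf g = N) (ht : t.Prime)
    (htN : t ∣ N) (htq : ¬ t ∣ q ^ 2 - 1) (htq' : ¬ t ∣ q)
    (hprim : ∀ d : ℕ, t ∣ q ^ (2 * d) - 1 → h ∣ d) (hself : Odd h → ¬ t ∣ q ^ h + 1)
    (hNeven : 2 ∣ N) (hM : M' q n = S * N) (hN0 : 0 < N) :
    2 ^ padicValNat 2 (q + 1) ∣ S := by
  classical
  have hp : p.Prime := Fact.out
  have hq2 := two_le hF
  have hcard1 : Fintype.card F - 1 = q ^ 2 - 1 := by rw [hF]
  have hq21 : q ^ 2 - 1 = (q + 1) * (q - 1) := by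
    obtain ⟨t, rfl⟩ : ∃ t, q = t + 1 := ⟨q - 1, by omega⟩
    simp only [Nat.add_sub_cancel]
    have : (t + 1) ^ 2 = (t + 1 + 1) * t + 1 := by ring
    omega
  have htcop : Nat.Coprime t (Fintype.card F - 1) := by
    rw [ht.coprime_iff_not_dvd, hcard1]
    exact htq
  obtain ⟨X, rfl⟩ := QuotientGroup.mk_surjective g
  have hn2 : 2 ≤ n := by omega
  have hev : Even n := by
    rw [hn]
    exact even_two_mul h
  set A : Matrix (Fin n) (Fin n) F := X.1.1 with hA
  set χ := A.charpoly with hχ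
  have hχm : χ.Monic := Matrix.charpoly_monic A
  have hχd : χ.natDegree = n := by
    have : χ.natDegree = Fintype.card (Fin n) := Matrix.charpoly_natDegree_eq_dim A
    rwa [Fintype.card_fin] at this
  have hdet : A.det = 1 := X.1.2
  have hdetχ : χ.coeff 0 = 1 := by
    have h3 := Matrix.det_eq_sign_charpoly_coeff A
    rw [hdet, Fintype.card_fin, hev.neg_one_pow, one_mul] at h3
    exact h3.symm
  have hto : ∀ j, X ^ j ∈ Subgroup.center ↥(Cfsg.SU n F q) → N ∣ j := by
    intro j hj
    rw [← hg]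
    apply orderOf_dvd_of_pow_eq_one
    rw [← QuotientGroup.mk_pow, QuotientGroup.eq_one_iff]
    exact hj
  have hXN : X ^ N ∈ Subgroup.center ↥(Cfsg.SU n F q) := by
    have := pow_orderOf_eq_one (QuotientGroup.mk X : Cfsg.PSU n F q)
    rw [hg, ← QuotientGroup.mk_pow, QuotientGroup.eq_one_iff] at this
    exact this
  obtain ⟨c, hc⟩ := scalar_of_center hF hn2 hXN
  have hAN : A ^ N = algebraMap F _ c := by
    apply Matrix.mulVec_injective
    funext x
    have h1 : A ^ N = ((X ^ N : ↥(Cfsg.SU n F q)).1.1 : Matrix (Fin n) (Fin n) F) := rfl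
    rw [h1, hc, Algebra.algebraMap_eq_smul_one, Matrix.smul_mulVec, Matrix.one_mulVec]
  -- the scalar is unitary
  have S_form := Cfsg.Agent.Lib.HermCount.Lines.herm_space (F := F) (q := q) n hF
  have hcq : c ^ (q + 1) = 1 := by
    obtain ⟨e, he⟩ : ∃ e : Fin n → F, Cfsg.hermForm n F q e e ≠ 0 := by
      by_contra hall
      push Not at hall
      haveI : Nontrivial (Fin n → F) := by
        haveI : Nonempty (Fin n) := ⟨⟨0, by omega⟩⟩
        infer_instance
      obtain ⟨e₀, he₀⟩ := S_form.exists_nonisotropic hF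
      exact he₀ (hall e₀)
    have h1 := (X ^ N).2 e e
    have h2 : Cfsg.hermForm n F q (((X ^ N : ↥(Cfsg.SU n F q)).1.1 : Matrix (Fin n) (Fin n) F).mulVec e)
        (((X ^ N : ↥(Cfsg.SU n F q)).1.1 : Matrix (Fin n) (Fin n) F).mulVec e) =
        Cfsg.hermForm n F q e e := h1
    rw [hc, S_form.smul_left, S_form.smul_right hF, ← mul_assoc] at h2
    have h3 := mul_right_cancel₀ he (h2.trans (one_mul _).symm)
    rw [pow_succ']
    exact h3
  have hc0 : c ≠ 0 := by
    rintro rfl
    rw [zero_pow (by omega)] at hcq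
    exact zero_ne_one hcq
  obtain ⟨s, hs0, hst⟩ := Lib.SLn.PrimeGraph.exists_root htcop hc0
  -- the cofactor
  obtain ⟨N₁, hN₁⟩ := htN
  have hN₁pos : 0 < N₁ := by
    rcases Nat.eq_zero_or_pos N₁ with h1 | h1
    · rw [h1, mul_zero] at hN₁
      omega
    · exact h1
  set P : F[X] := C s⁻¹ * Polynomial.X ^ N₁ with hP
  set H : F[X] := ∑ i ∈ Finset.range t, P ^ i with hH
  have hPH : (P - 1) * H = P ^ t - 1 := mul_geom_sum P t
  have hPt : P ^ t = C c⁻¹ * Polynomial.X ^ N := by
    rw [hP, mul_pow, ← C_pow, inv_pow, hst, ← pow_mul, mul_comm N₁ t, ← hN₁]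
  have hAP : aeval A P ^ t = 1 := by
    rw [← map_pow, hPt, map_mul, aeval_C, map_pow, aeval_X, hAN, ← map_mul, inv_mul_cancel₀ hc0, map_one]
  have hne1 : aeval A P ≠ 1 := by
    intro h1
    have h2 : N ∣ N₁ := by
      apply hto
      apply center_of_scalar (a := s)
      intro x
      have h3 : ((X ^ N₁ : ↥(Cfsg.SU n F q)).1.1 : Matrix (Fin n) (Fin n) F) = A ^ N₁ := rfl
      rw [h3]
      have h4 : A ^ N₁ = algebraMap F _ s := by
        rw [hP, map_mul, aeval_C, map_pow, aeval_X] at h1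
        have h5 := congrArg (fun m => algebraMap F (Matrix (Fin n) (Fin n) F) s * m) h1
        simp only [mul_one] at h5
        rw [← mul_assoc, ← map_mul, mul_inv_cancel₀ hs0, map_one, one_mul] at h5
        exact h5
      rw [h4, Algebra.algebraMap_eq_smul_one, Matrix.smul_mulVec, Matrix.one_mulVec]
    have h3 := Nat.le_of_dvd hN₁pos h2
    have h4 := ht.two_le
    rw [hN₁] at h3
    nlinarith
  have hnotcop : ¬ IsCoprime χ H := by
    rintro ⟨u, b, hub⟩
    have h1 := congrArg (aeval A) hub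
    rw [map_add, map_mul, map_mul, hχ, Matrix.aeval_self_charpoly, mul_zero, zero_add, map_one] at h1
    apply hne1
    have h2 := congrArg (aeval A) hPH
    rw [map_mul, map_sub, map_sub, map_pow, hAP, map_one, sub_self] at h2
    have h3 : (aeval A P - 1) = 0 := by
      calc (aeval A P - 1) = (aeval A P - 1) * (aeval A b * aeval A H) := by rw [h1, mul_one]
        _ = (aeval A P - 1) * aeval A H * aeval A b := by
            have : Commute (aeval A b) (aeval A H) := (Commute.all b H).map (aeval A)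
            rw [this.eq, mul_assoc]
        _ = 0 := by rw [h2, zero_mul]
    exact sub_eq_zero.mp h3
  have hχ0 : χ ≠ 0 := hχm.ne_zero
  have hex : ∃ z : F[X], Irreducible z ∧ z ∣ χ ∧ z ∣ H := by
    by_contra hall
    push Not at hall
    apply hnotcop
    apply isCoprime_of_irreducible_dvd (fun h1 => hχ0 h1.1)
    intro z hz h1 h2
    exact hall z hz h1 h2
  obtain ⟨z, hz, hzχ, hzH⟩ := hex
  -- the monic associate
  have hz0 : z ≠ 0 := hz.ne_zero
  set π : F[X] := z * C z.leadingCoeff⁻¹ with hπdef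
  have hassoc : Associated z π := by
    refine ⟨⟨C z.leadingCoeff⁻¹, C z.leadingCoeff, ?_, ?_⟩, rfl⟩
    · rw [← C_mul, inv_mul_cancel₀ (leadingCoeff_ne_zero.mpr hz0), C_1]
    · rw [← C_mul, mul_inv_cancel₀ (leadingCoeff_ne_zero.mpr hz0), C_1]
  have hπ : Irreducible π := hassoc.irreducible hz
  have hm : π.Monic := monic_mul_leadingCoeff_inv hz0
  have hπχ : π ∣ χ := hassoc.symm.dvd.trans hzχ
  have hπH : π ∣ H := hassoc.symm.dvd.trans hzH
  have h0 : π.coeff 0 ≠ 0 := by
    intro h1
    have h2 : (Polynomial.X : F[X]) ∣ χ := (X_dvd_iff.mpr h1).trans hπχ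
    rw [X_dvd_iff, hdetχ] at h2
    exact one_ne_zero h2
  haveI : Fact (Irreducible π) := ⟨hπ⟩
  set d := π.natDegree with hd
  have hdpos : 0 < d := hπ.natDegree_pos
  have hdle : d ≤ n := by
    rw [← hχd]
    exact natDegree_le_of_dvd hπχ hχ0
  let K := AdjoinRoot π
  let pb := AdjoinRoot.powerBasis hπ.ne_zero
  haveI : Module.Finite F K := pb.finite
  haveI : Finite K := Module.finite_of_finite F
  letI : Fintype K := Fintype.ofFinite K
  have hfr : finrank F K = d := by
    rw [PowerBasis.finrank pb]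
    simp [pb, AdjoinRoot.powerBasis_dim, hd]
  have hcardK : Fintype.card K = q ^ (2 * d) := by
    rw [← hfr, Module.card_eq_pow_finrank (K := F) (V := K), hF, ← pow_mul]
  let θ : K := AdjoinRoot.root π
  have hθ0 : θ ≠ 0 := root_ne_zero hπ hm h0
  have hroot : ∀ g : F[X], π ∣ g → aeval θ g = 0 := by
    intro g hg
    obtain ⟨Q, rfl⟩ := hg
    have : aeval θ π = 0 := by
      simp only [θ]
      rw [AdjoinRoot.aeval_eq, AdjoinRoot.mk_self]
    rw [map_mul, this, zero_mul]
  set v : K := aeval θ P with hv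
  have hvdef : v = algebraMap F K s⁻¹ * θ ^ N₁ := by
    rw [hv, hP, map_mul, aeval_C, map_pow, aeval_X]
  have hθN : θ ^ N = algebraMap F K c := by
    have h1 : π ∣ Polynomial.X ^ N - C c := by
      apply dvd_of_aeval_eq_zero A hπ hπχ
      rw [map_sub, map_pow, aeval_X, aeval_C, hAN, sub_self]
    have h2 := hroot _ h1
    rw [map_sub, map_pow, aeval_X, aeval_C] at h2
    exact sub_eq_zero.mp h2
  have hvt : v ^ t = 1 := by
    rw [hvdef, mul_pow, ← map_pow, inv_pow, hst, ← pow_mul, mul_comm N₁ t, ← hN₁, hθN, ← map_mul,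
      inv_mul_cancel₀ hc0, map_one]
  have hsum : ∑ i ∈ Finset.range t, v ^ i = 0 := by
    have h1 := hroot _ hπH
    rw [hH, map_sum] at h1
    simpa [map_pow, hv] using h1
  have htF : ((t : ℕ) : K) ≠ 0 := by
    haveI : CharP K p := charP_of_injective_algebraMap (algebraMap F K).injective p
    rw [Ne, CharP.cast_eq_zero_iff K p]
    intro h1
    have h2 : p = t := (Nat.prime_dvd_prime_iff_eq hp ht).mp h1
    apply htq'
    rw [← h2, hq]
    rcases Nat.eq_zero_or_pos a with h3 | h3
    · rw [h3, pow_zero] at hq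
      omega
    · exact dvd_pow_self p h3.ne'
  have hv1 : v ≠ 1 := by
    intro h1
    rw [h1] at hsum
    simp only [one_pow, Finset.sum_const, Finset.card_range, nsmul_eq_mul, mul_one] at hsum
    exact htF hsum
  have hvo : orderOf v = t := by
    haveI : Fact t.Prime := ⟨ht⟩
    exact orderOf_eq_prime hvt hv1
  have hv0 : v ≠ 0 := by
    intro h1
    rw [h1, zero_pow ht.ne_zero] at hvt
    exact zero_ne_one hvt
  have htK : t ∣ q ^ (2 * d) - 1 := by
    rw [← hvo, ← hcardK]
    apply orderOf_dvd_of_pow_eq_one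
    exact FiniteField.pow_card_sub_one_eq_one v hv0
  have hhd : h ∣ d := hprim d htK
  obtain ⟨k, hk⟩ := hhd
  -- the scalar `s`
  have hs1 : s ^ (q + 1) = 1 := by
    have h1 : (s ^ (q + 1)) ^ t = 1 := by
      rw [← pow_mul, mul_comm, pow_mul, hst, hcq]
    have h2 : (s ^ (q + 1)) ^ (q - 1) = 1 := by
      rw [← pow_mul, ← hq21, ← hcard1]
      exact FiniteField.pow_card_sub_one_eq_one s hs0
    have h3 : Nat.Coprime t (q - 1) := by
      rw [ht.coprime_iff_not_dvd]
      intro h4
      apply htq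
      rw [hq21]
      exact h4.trans (dvd_mul_left _ _)
    have h4 : (s ^ (q + 1)) ^ Nat.gcd t (q - 1) = 1 := pow_gcd_eq_one.mpr ⟨h1, h2⟩
    rwa [h3.gcd_eq_one, pow_one] at h4
  -- the polynomial is not self dual
  have hnself : dag hF π ≠ π := by
    intro hs
    obtain ⟨hdodd, hdvd⟩ := selfdag_dvd p hF hq hπ hm h0 hs
    rw [← hd] at hdodd hdvd
    have h1 : θ ^ (q ^ d + 1) = 1 := by
      have h2 := hroot _ hdvd
      rw [map_sub, map_pow, aeval_X, map_one] at h2
      exact sub_eq_zero.mp h2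
    have h2 : v ^ (q ^ d + 1) = 1 := by
      rw [hvdef, mul_pow, ← pow_mul, mul_comm N₁, pow_mul, h1, one_pow, mul_one, ← map_pow, pow_succ,
        pow_odd_eq hF hdodd, ← pow_succ, inv_pow, hs1, inv_one, map_one]
    have h3 : t ∣ q ^ d + 1 := by
      rw [← hvo]
      exact orderOf_dvd_of_pow_eq_one h2
    -- `d = h` is odd
    have hk2 : k ≤ 2 := by
      have : h * k ≤ h * 2 := by
        rw [← hk, mul_comm h 2, ← hn]
        exact hdle
      exact Nat.le_of_mul_le_mul_left this (by omega)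
    have hkne : k ≠ 0 := by
      rintro rfl
      omega
    have hk1 : k = 1 := by
      by_contra hk1
      have hk22 : k = 2 := by omega
      rw [hk22] at hk
      rw [hk] at hdodd
      exact (Nat.not_even_iff_odd.mpr hdodd) ⟨h, by ring⟩
    rw [hk1, mul_one] at hk
    rw [hk] at hdodd h3
    exact hself hdodd h3
  -- the dual polynomial also divides
  obtain ⟨s', hs'0, hs'⟩ := charpoly_selfdual hF X
  have hdagχ : dag hF π ∣ χ := by
    obtain ⟨G, hG⟩ := hπχ
    rw [← hA, ← hχ, hG, Polynomial.map_mul, reverse_mul_of_domain, reverse_map_eq hF h0] at hs'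
    have h1 : dag hF π ∣ C s' * χ :=
      ⟨C (π.coeff 0 ^ q) * (G.map (frobHom hF)).reverse, by rw [hG, ← hs']; ring⟩
    exact ((IsUnit.mk0 _ hs'0).map C).dvd_mul_left.mp h1
  have hπ' := dag_irreducible hF hπ h0
  have hm' := dag_monic hF h0
  have hd' := dag_natDegree hF h0
  have hnassoc : ¬ Associated π (dag hF π) := fun h =>
    hnself (eq_of_monic_of_associated hm hm' h).symm
  have hcop : IsCoprime π (dag hF π) := by
    rw [hπ.coprime_iff_not_dvd]
    intro h
    exact hnassoc ((hπ.dvd_irreducible_iff_associated hπ').mp h)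
  have hprod : π * dag hF π ∣ χ := hcop.mul_dvd hπχ hdagχ
  have hdegprod : (π * dag hF π).natDegree = 2 * d := by
    rw [hm.natDegree_mul hm', hd', ← hd]
    ring
  have hdh : d = h := by
    have h1 := natDegree_le_of_dvd hprod hχ0
    rw [hdegprod, hχd, hn] at h1
    have h2 : d ≤ h := by omega
    rw [hk] at h2
    have hkne : k ≠ 0 := by
      rintro rfl
      omega
    have hk1 : k = 1 := by
      have : h * k ≤ h * 1 := by simpa using h2
      have := Nat.le_of_mul_le_mul_left this (by omega)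
      omega
    rw [hk, hk1, mul_one]
  have hχeq : χ = π * dag hF π := by
    refine eq_of_monic_of_dvd_of_natDegree_le (hm.mul hm') hχm hprod ?_
    rw [hdegprod, hχd, hn, hdh]
  have hdet1 : π.coeff 0 * (π.coeff 0 ^ q)⁻¹ = 1 := by
    rw [hχeq, mul_coeff_zero, dag_coeff_zero hF hm] at hdetχ
    exact hdetχ
  have h2 := root_pow_of_pair hF hπ hm h0 (e := 1) (by rw [pow_one]; exact hdet1)
  have hθM : θ ^ M' q n = 1 := by
    have h3 := pow_natAbs_eq_one h2
    have h4 : 2 * π.natDegree * 1 = n := by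
      rw [← hd, hdh, hn, mul_one]
    rw [h4] at h3
    exact h3
  have hθN1 : (θ ^ N) ^ (q + 1) = 1 := by
    rw [hθN, ← map_pow, hcq, map_one]
  have hθN2 : (θ ^ N) ^ S = 1 := by
    rw [← pow_mul, mul_comm N S, ← hM]
    exact hθM
  have hG : (θ ^ N) ^ Nat.gcd S (q + 1) = 1 := pow_gcd_eq_one.mpr ⟨hθN2, hθN1⟩
  set G := Nat.gcd S (q + 1) with hGdef
  obtain ⟨E, hE⟩ : G ∣ q + 1 := Nat.gcd_dvd_right _ _
  have h2a : 2 ^ padicValNat 2 (q + 1) ∣ q + 1 := pow_padicValNat_dvd
  by_cases hEodd : Odd E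
  · have h1 : Nat.Coprime (2 ^ padicValNat 2 (q + 1)) E :=
      Nat.Coprime.pow_left _ (Nat.coprime_two_left.mpr hEodd)
    have h3 : 2 ^ padicValNat 2 (q + 1) ∣ G * E := by
      rw [← hE]
      exact h2a
    exact (h1.dvd_of_dvd_mul_right h3).trans (Nat.gcd_dvd_left _ _)
  · exfalso
    obtain ⟨E', hE'⟩ := Nat.not_odd_iff_even.mp hEodd
    obtain ⟨N', hN'⟩ := hNeven
    have hN'pos : 1 ≤ N' := by
      rcases Nat.eq_zero_or_pos N' with h1 | h1
      · rw [h1] at hN'
        omega
      · exact h1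
    have h1 : (θ ^ N') ^ (q + 1) = 1 := by
      have h3 : N' * (q + 1) = N * G * E' := by
        rw [hE, hE', hN']
        ring
      rw [← pow_mul, h3, pow_mul, pow_mul, hG, one_pow]
    obtain ⟨c₁, hc₁⟩ := Lib.SLn.SchurField.exists_scalar_of_pow (F := F) (y := θ ^ N') (by
      rw [hcard1, hq21, pow_mul, h1, one_pow])
    have hc₁q : c₁ ^ (q + 1) = 1 := by
      apply (algebraMap F K).injective
      rw [map_pow, ← hc₁, h1, map_one]
    have h3 : π ∣ Polynomial.X ^ N' - C c₁ := Lib.SLn.Spec.dvd_of_root_pow hπ hc₁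
    have h4 := dag_dvd hF h0 hN'pos hc₁q h3
    have h5 := hcop.mul_dvd h3 h4
    have h6 : χ ∣ (Polynomial.X ^ N' - C c₁) ^ 1 := by
      rw [pow_one, hχeq]
      exact h5
    have h7 := pow_mem_center_of_dvd p X h6 (c := 0) (by simp)
    rw [pow_zero, mul_one] at h7
    have h8 := Nat.le_of_dvd (by omega) (hto N' h7)
    omega

end structure_part

end Cfsg.Agent.Lib.SUSpec.HalfTorus
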